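import Cfsg.Agent.H840.Wd

/-!
# `Fi24`: two lines of transpositions commuting with `y = l k b c e f`, kernel checks (helper597)

`v0 = h x1` with `x1` at the point 3235; `v1 = c v0 c⁻¹` with `c = h b1`, `b1` at the point 241704; `t` at the point
291721; `y v0⁻¹ v1 = t (y t y⁻¹)`.
-/

set_option autoImplicit false
set_option maxRecDepth 100000
set_option Elab.async false

namespace Cfsg.Agent.H597.R7.LineBK

open Cfsg Cfsg.Agent.Lib.PermNet Cfsg.Agent.Lib.PermNetPt Cfsg.Agent.Fischer.Fi24RepDef Cfsg.Agent.Fischer.Fi24Rep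
open Cfsg.Agent.Fischer.Fi24RepOrb (UG)
open Cfsg.Agent.KFacts.FiTF.FixMask
open Cfsg.Agent.H840.Wd
open Cfsg.Spor (Fi24)
open Cfsg.Spor.Fi24 (Gen)

/-- the word of `y` -/
def yw : List Gen := [.l, .k, .b, .c, .e, .f]

/-- the word taking `l` to `x1` -/
def ux : List Gen :=
  [.d, .e, .c, .d, .h, .f, .e, .d, .c, .a, .b, .k, .a, .l, .k]

/-- the word of `x1` -/
def xw : List Gen := ux ++ Gen.l :: ux.reverse

/-- the word taking `l` to `b1` -/
def ub : List Gen :=
  [.d, .e, .c, .d, .h, .i, .b, .c, .d, .h, .g, .e, .f, .a, .b, .c, .d, .e, .l, .k, .a, .b, .c, .d, .h, .i, .f, .d,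
  .e, .b, .c, .d, .h, .j, .g, .f, .e, .d, .c, .b, .a, .k]

/-- the word of `b1` -/
def bw : List Gen := ub ++ Gen.l :: ub.reverse

/-- the word taking `l` to `t` -/
def ut : List Gen :=
  [.d, .h, .i, .g, .f, .e, .d, .h, .b, .c, .d, .e, .a, .b, .c, .d, .h, .i, .f, .e, .a, .b, .c, .d, .h, .j, .g, .f,
  .e, .d, .c, .b, .a, .k]

/-- the word of `t` -/
def tw : List Gen := ut ++ Gen.l :: ut.reverse

/-- the points of `x1`, `b1`, `t` -/
theorem pt_x : chkPt (nw ux false) 0 3235 = true := by decide +kernel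
theorem pt_b : chkPt (nw ub false) 0 241704 = true := by decide +kernel
theorem pt_t : chkPt (nw ut false) 0 291721 = true := by decide +kernel

/-- `y` fixes the points of `h`, `x1`, `b1` and moves `t` -/
theorem y_h : chkPt (nw yw false) 4 4 = true := by decide +kernel
theorem y_x : chkPt (nw yw false) 3235 3235 = true := by decide +kernel
theorem y_b : chkPt (nw yw false) 241704 241704 = true := by decide +kernel
theorem y_t : chkPt (nw yw false) 291721 291801 = true := by decide +kernel

/-- `t` does not commute with its image under `y` -/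
theorem t_y : chkPt (nw tw false) 291801 305301 = true := by decide +kernel

/-- `h` commutes with neither `x1` nor `b1` -/
theorem h_x : chkPt (nw [.h] false) 3235 3251 = true := by decide +kernel
theorem h_b : chkPt (nw [.h] false) 241704 241720 = true := by decide +kernel

theorem y3 : eqB (yw ++ (yw ++ yw)) [] = true := by decide +kernel

/-- `y v0⁻¹ v1 = t (y t y⁻¹)` -/
theorem ident : eqB (yw ++ ((xw ++ [.h]) ++ (([.h] ++ bw) ++ (([.h] ++ xw) ++ (bw ++ [.h])))))
    (tw ++ (yw ++ (tw ++ yw.reverse))) = true := by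
  decide +kernel

end Cfsg.Agent.H597.R7.LineBK
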